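import Mathlib
import Cfsg.Agent.Lib.Helper9.S4033.Defs

/-!
# S4033, package [Q]: passage to the quotient by a normal `p`-subgroup
-/

set_option autoImplicit false

namespace Cfsg.Agent.Lib.Helper91.S4033

open Cfsg.Agent.Lib.Helper9.S4033

universe u

theorem q_arith (p a k i R : ℕ) (hp : p.Prime) (ha : a.Coprime p)
    (h : p ^ i * R = p ^ k * a) : ∃ j : ℕ, R = p ^ j * a := by
  have hdvd : p ^ i ∣ p ^ k * a := ⟨R, h.symm⟩
  have hcop : (p ^ i).Coprime a := Nat.Coprime.pow_left i ha.symm
  have hdvd' : p ^ i ∣ p ^ k := hcop.dvd_of_dvd_mul_right hdvd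
  have hik : i ≤ k := (Nat.pow_dvd_pow_iff_le_right hp.one_lt).mp hdvd'
  refine ⟨k - i, ?_⟩
  have hpos : 0 < p ^ i := pow_pos hp.pos i
  apply Nat.eq_of_mul_eq_mul_left hpos
  rw [h, ← mul_assoc, ← pow_add, Nat.add_sub_cancel' hik]

theorem q_center_map {G : Type u} [Group G] (M : Subgroup G) [M.Normal] (x : G)
    (hx : x ∈ Subgroup.center G) :
    (QuotientGroup.mk x : G ⧸ M) ∈ Subgroup.center (G ⧸ M) := by
  rw [Subgroup.mem_center_iff]
  intro g
  obtain ⟨g0, rfl⟩ := QuotientGroup.mk_surjective g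
  rw [← QuotientGroup.mk_mul, ← QuotientGroup.mk_mul, Subgroup.mem_center_iff.mp hx g0]

/-- cardinality of the image of a subgroup modulo a normal `p`-subgroup. -/
theorem q_card_map {G : Type u} [Group G] [Finite G] (p a k : ℕ) (hp : p.Prime)
    (ha : a.Coprime p) (M : Subgroup G) [M.Normal] (hM : IsPGroup p M) (C : Subgroup G)
    (hC : Nat.card C = p ^ k * a) :
    ∃ j : ℕ, Nat.card (C.map (QuotientGroup.mk' M)) = p ^ j * a := by
  have : Fact p.Prime := ⟨hp⟩
  let f : ↥C →* G ⧸ M := (QuotientGroup.mk' M).comp C.subtype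
  have hrange : f.range = C.map (QuotientGroup.mk' M) := by
    rw [MonoidHom.range_comp, Subgroup.range_subtype]
  have hker : f.ker = M.subgroupOf C := by
    ext ⟨z, hz⟩
    simp [f, MonoidHom.mem_ker, Subgroup.mem_subgroupOf, QuotientGroup.eq_one_iff]
  have hcard : Nat.card f.ker * Nat.card f.range = Nat.card C := by
    rw [← Subgroup.index_ker]
    exact Subgroup.card_mul_index _
  have hPk : IsPGroup p f.ker := by
    rw [hker]
    exact hM.comap_subtype
  obtain ⟨i, hi⟩ := IsPGroup.iff_card.mp hPk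
  rw [← hrange]
  exact q_arith p a k i _ hp ha (by rw [← hi, hcard, hC])

theorem pkgQ (hQa : PkgQa.{u}) : PkgQ.{u} := by
  intro G _ _ p a hp ha hX hT M _ hM
  have : Fact p.Prime := ⟨hp⟩
  obtain ⟨hQ1, hQ2⟩ := hQa G p hp M hM
  by_cases hc : ∃ x : G, (orderOf x).Coprime p ∧ x ∉ Subgroup.center G ∧
      (QuotientGroup.mk x : G ⧸ M) ∈ Subgroup.center (G ⧸ M)
  · left
    obtain ⟨x, hxp, hxc, hxz⟩ := hc
    obtain ⟨-, k, hk⟩ := hX x hxp hxc
    have htop : M ⊔ Subgroup.centralizer ({x} : Set G) = ⊤ := by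
      rw [eq_top_iff]
      intro y _
      have hy : (QuotientGroup.mk y : G ⧸ M) ∈
          Subgroup.centralizer ({(QuotientGroup.mk x : G ⧸ M)} : Set (G ⧸ M)) := by
        rw [Subgroup.mem_centralizer_iff]
        intro z hz
        rw [Set.mem_singleton_iff] at hz
        subst hz
        exact (Subgroup.mem_center_iff.mp hxz _).symm
      obtain ⟨c, hcC, hcy⟩ := hQ1 x hxp y hy
      have hm : y * c⁻¹ ∈ M := by
        have h1 : (QuotientGroup.mk (y * c⁻¹) : G ⧸ M) = 1 := by
          rw [QuotientGroup.mk_mul, QuotientGroup.mk_inv, hcy, mul_inv_cancel]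
        exact (QuotientGroup.eq_one_iff _).mp h1
      have hyy : y = (y * c⁻¹) * c := by group
      rw [hyy]
      exact Subgroup.mul_mem _ (Subgroup.mem_sup_left hm) (Subgroup.mem_sup_right hcC)
    have h1 : Nat.card M * M.index = Nat.card G := Subgroup.card_mul_index M
    have h2 : M.index = M.relIndex (Subgroup.centralizer ({x} : Set G)) := by
      rw [← Subgroup.relIndex_top_right, ← htop, Subgroup.relIndex_sup_left]
    have h3 : Nat.card (M.subgroupOf (Subgroup.centralizer ({x} : Set G))) *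
        M.relIndex (Subgroup.centralizer ({x} : Set G)) =
          Nat.card (Subgroup.centralizer ({x} : Set G)) :=
      Subgroup.card_mul_index _
    have hPk : IsPGroup p (M.subgroupOf (Subgroup.centralizer ({x} : Set G))) :=
      hM.comap_subtype
    obtain ⟨i, hi⟩ := IsPGroup.iff_card.mp hPk
    obtain ⟨n, hn⟩ := IsPGroup.iff_card.mp hM
    obtain ⟨j, hj⟩ := q_arith p a k i _ hp ha (by rw [← hi, h3, hk])
    refine ⟨n + j, ?_⟩
    rw [← h1, h2, hj, hn, pow_add, mul_assoc]
  · right
    push Not at hc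
    constructor
    · intro ub hub hubc
      obtain ⟨c0, rfl⟩ := QuotientGroup.mk_surjective ub
      obtain ⟨u0, -, hu0p, hu0⟩ := hQ2 ⊤ c0 (Subgroup.mem_top _) hub
      have hu0c : u0 ∉ Subgroup.center G := by
        intro hcen
        apply hubc
        rw [← hu0]
        exact q_center_map M u0 hcen
      obtain ⟨hcent, k, hk⟩ := hX u0 hu0p hu0c
      rw [← hu0]
      have hmap : Subgroup.centralizer ({(QuotientGroup.mk u0 : G ⧸ M)} : Set (G ⧸ M)) =
          (Subgroup.centralizer ({u0} : Set G)).map (QuotientGroup.mk' M) := by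
        ext z
        constructor
        · intro hz
          obtain ⟨z0, rfl⟩ := QuotientGroup.mk_surjective z
          obtain ⟨c, hcC, hcz⟩ := hQ1 u0 hu0p z0 hz
          exact ⟨c, hcC, hcz⟩
        · rintro ⟨c, hcC, rfl⟩
          rw [Subgroup.mem_centralizer_iff]
          intro h hh
          rw [Set.mem_singleton_iff] at hh
          subst hh
          show (QuotientGroup.mk u0 : G ⧸ M) * QuotientGroup.mk c =
            QuotientGroup.mk c * QuotientGroup.mk u0
          rw [← QuotientGroup.mk_mul, ← QuotientGroup.mk_mul]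
          congr 1
          exact Subgroup.mem_centralizer_iff.mp hcC u0 (Set.mem_singleton u0)
      constructor
      · intro yb hyb hybp cb hcb
        obtain ⟨y0, rfl⟩ := QuotientGroup.mk_surjective yb
        obtain ⟨c1, hc1, hc1y⟩ := hQ1 u0 hu0p y0 hyb
        obtain ⟨y, hyC, hyp, hyy⟩ := hQ2 (Subgroup.centralizer ({u0} : Set G)) c1 hc1
          (by rw [hc1y]; exact hybp)
        obtain ⟨c00, rfl⟩ := QuotientGroup.mk_surjective cb
        obtain ⟨c2, hc2, hc2c⟩ := hQ1 u0 hu0p c00 hcb
        have hcomm := hcent y hyC hyp c2 hc2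
        rw [← hc1y, ← hyy, ← hc2c, ← QuotientGroup.mk_mul, ← QuotientGroup.mk_mul, hcomm]
      · rw [hmap]
        exact q_card_map p a k hp ha M hM _ hk
    · obtain ⟨s, t, hs, ht, hst, hsp, htp, hNs, hNt⟩ := hT
      have hNC : ∀ r : ℕ, r.Prime → r ≠ p → NC G r → NC (G ⧸ M) r := by
        rintro r hr hrp ⟨x, hxc, k, hxk⟩
        refine ⟨QuotientGroup.mk x, ?_, ?_⟩
        · apply hc x _ hxc
          rw [hxk]
          exact Nat.Coprime.pow_left k ((Nat.coprime_primes hr hp).mpr hrp)
        · have hdvd : orderOf (QuotientGroup.mk x : G ⧸ M) ∣ r ^ k := by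
            rw [← hxk]
            exact orderOf_map_dvd (QuotientGroup.mk' M) x
          obtain ⟨j, -, hj⟩ := (Nat.dvd_prime_pow hr).mp hdvd
          exact ⟨j, hj⟩
      exact ⟨s, t, hs, ht, hst, hsp, htp, hNC s hs hsp hNs, hNC t ht htp hNt⟩

end Cfsg.Agent.Lib.Helper91.S4033
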